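import Groth.Agent.Gaga.H976.Defs2
import Groth.Agent.CohqA.FinSec

/-!
# Analytifications of coherent sheaves are finitely presented

* `isFP_of_isCoh`: coherent modules on locally Noetherian schemes are finitely presented;
* `isFinitePresentation_of_alg`: the analytification of a coherent sheaf is finitely presented.
-/

set_option autoImplicit false
universe u

open CategoryTheory AlgebraicGeometry TopologicalSpace Opposite

noncomputable section

namespace Groth.Agent.Gaga.H530.AlgFP

open Groth.Agent.Gaga.H975.ModSec Groth.Agent.Gaga.H986.Stalk Groth.Agent.Gaga.H986.Pull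
open Groth.Agent.Gaga.H976.Defs Groth.Agent.Gaga.H976.Defs2 Groth.Agent.Gaga.H976.Quot
open Groth.Agent.Gaga.H986.Nak Groth.Agent.Gaga.H976.FPS

/-- Coherent modules on locally Noetherian schemes are finitely presented. -/
theorem isFP_of_isCoh {X : Scheme.{u}} [IsLocallyNoetherian X] {M : X.Modules} (h : Coh.IsCoh M) :
    SheafOfModules.IsFinitePresentation (R := X.ringCatSheaf) M := by
  refine Groth.Agent.CohqA.FinSec.isFP_of_finitePresentation h.1 fun x => ?_
  obtain ⟨U, hU, hx, -⟩ := exists_isAffineOpen_mem_and_subset (U := (⊤ : X.Opens)) (x := x) trivial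
  refine ⟨U, hU, hx, ?_⟩
  have : IsNoetherianRing Γ(X, U) := IsLocallyNoetherian.component_noetherian ⟨U, hU⟩
  have := Groth.Agent.CohqA.FinSec.finite_sections hU h.1 h.2
  exact Module.finitePresentation_of_finite _ _

set_option backward.isDefEq.respectTransparency.types false in
/-- The analytification of a coherent sheaf is finitely presented. -/
theorem isFinitePresentation_analytify {X : Scheme.{0}} [X.Over An.SC] [IsLocallyNoetherian X]
    {M : X.Modules} (hM : Coh.IsCoh M) : ((An.analytify X).obj M).IsFinitePresentation :=
  Groth.Agent.Gaga.H976.FPC.isFinitePresentation_pull (R := X.sheaf) (R1 := An.hol X)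
    (φ := An.anRingHom X) (An.analytifyAdj X) (M := M) (isFP_of_isCoh hM)

/-- [CFP] -/
theorem isFinitePresentation_of_alg {X : Scheme.{0}} [X.Over An.SC] [IsLocallyNoetherian X]
    {N : An.AnMod X} (hN : Alg N) : N.IsFinitePresentation := by
  obtain ⟨M, hM, ⟨e⟩⟩ := hN
  exact (SheafOfModules.isFinitePresentation (An.holRing X)).prop_of_iso e
    (isFinitePresentation_analytify hM)

end Groth.Agent.Gaga.H530.AlgFP
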